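import Mathlib
import Cfsg.Agent.Lib.TwoGrp2.FinkAb
import Cfsg.Agent.Lib.TwoGrp.Fpf3
import Cfsg.Agent.Lib.Invol.Four
import Cfsg.Agent.Lib.PGroup.MaxClass

/-! Non-abelian groups of order 64 with a fixed-point-free automorphism of order 3. -/

set_option autoImplicit false

namespace CfsgLib.TwoGrp2

open Subgroup CfsgLib.TwoGrp CfsgLib.Suz2
open scoped commutatorElement

variable {T : Type*} [Group T] [Finite T] {σ : MulAut T} (hT : IsPGroup 2 T) (hσ : ∀ y, σ y = y → y = 1)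
  (h3 : ∀ y, σ (σ (σ y)) = y)
include hT hσ h3

theorem f3_cen (a b g : T) : g * ⁅a, b⁆ = ⁅a, b⁆ * g := mem_center_iff.1 (fpf3_commutator_mem_center hσ h3 hT a b) g

theorem f3_left (a b y : T) : ⁅a * b, y⁆ = ⁅a, y⁆ * ⁅b, y⁆ := by
  rw [f3_cen hT hσ h3, ← mul_inv_cancel_right ⁅b, y⁆ a, ← f3_cen hT hσ h3 b y a]
  group

theorem f3_right (y a b : T) : ⁅y, a * b⁆ = ⁅y, a⁆ * ⁅y, b⁆ := by
  rw [← mul_inv_cancel_right ⁅y, b⁆ a, ← f3_cen hT hσ h3 y b a]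
  group

theorem f3_swap (a b : T) : ⁅σ a, b⁆ = ⁅a, σ b⁆ := by
  have h := (fpf3_commute hσ h3 (a * b)).commutator_eq
  rw [map_mul, f3_left hT hσ h3, f3_right hT hσ h3, f3_right hT hσ h3, (fpf3_commute hσ h3 a).commutator_eq,
    (fpf3_commute hσ h3 b).commutator_eq, one_mul, mul_one] at h
  rw [eq_inv_of_mul_eq_one_left h, commutatorElement_inv]

theorem f3_sig (a b : T) : ⁅σ a, b⁆ = σ (σ ⁅a, b⁆) := by
  rw [map_commutatorElement, map_commutatorElement, f3_swap hT hσ h3 (σ a), h3]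

theorem f3_sq (u v : T) : u * v * (u * v) = ⁅v, u⁆ * (u * u) * (v * v) := by
  rw [mul_mul_mul_eq_commutator, f3_cen hT hσ h3, mul_assoc _ u u]

theorem f3_core (hc : Nat.card T = 64) {F : Type*} [Field F] [CharP F 2] (hF : Nat.card F = 4) {a b : T}
    (h1 : ⁅a, b⁆ ≠ 1) (h2 : ⁅a, b⁆ * ⁅a, b⁆ = 1) :
    (∀ y, ⁅y, a⁆ = 1 → ⁅y, b⁆ = 1 → y ∈ closure {⁅a, b⁆, σ ⁅a, b⁆}) ∧ (∀ y, y * y ∈ closure {⁅a, b⁆, σ ⁅a, b⁆}) ∧
      (a * a = 1 → b * b = 1 → ∃ (π : T → F × F) (ι : F → T), Ext (fun v : F × F => v.1 * v.2) π ι) := by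
  have hne : σ ⁅a, b⁆ ≠ ⁅a, b⁆ := fun e => h1 (hσ _ e)
  have h2' : σ ⁅a, b⁆ * σ ⁅a, b⁆ = 1 := by rw [← map_mul, h2, map_one]
  have hzV : ⁅a, b⁆ ∈ closure {⁅a, b⁆, σ ⁅a, b⁆} := subset_closure (by simp)
  have hVc : closure {⁅a, b⁆, σ ⁅a, b⁆} ≤ center T := (closure_le _).2 (by
    rintro _ (rfl | rfl)
    exacts [fpf3_commutator_mem_center hσ h3 hT a b, sInv_center σ _ (fpf3_commutator_mem_center hσ h3 hT a b)])
  have hV4 := Invol.card_closure_pair_of_commute (orderOf_eq_prime (by rw [sq, h2]) h1)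
    (orderOf_eq_prime (by rw [sq, h2']) (σ.map_ne_one_iff.2 h1)) hne.symm (fpf3_commute hσ h3 _)
  have hVs : ∀ v ∈ closure {⁅a, b⁆, σ ⁅a, b⁆}, v * v = 1 := fun v hv => by
    rcases (Invol.mem_closure_pair_of_commute h2 h2' (fpf3_commute hσ h3 _) v).1 hv with rfl | rfl | rfl | rfl
    exacts [mul_one 1, h2, h2', Invol.mul_mul_self_of_commute h2 h2' (fpf3_commute hσ h3 _)]
  have hVσ : SInv σ (closure {⁅a, b⁆, σ ⁅a, b⁆}) := fun v hv => mem_comap.1 ((closure_le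
      (comap σ.toMonoidHom (closure {⁅a, b⁆, σ ⁅a, b⁆}))).2 (by
    rintro _ (rfl | rfl)
    · exact Subgroup.subset_closure (Or.inr rfl)
    · change σ (σ _) ∈ Subgroup.closure _
      rw [eq_inv_of_mul_eq_one_right (fpf3_norm hσ h3 _)]
      exact inv_mem (mul_mem hzV (Subgroup.subset_closure (Or.inr rfl)))) hv)
  generalize closure {⁅a, b⁆, σ ⁅a, b⁆} = V at hzV hVc hV4 hVs hVσ
  obtain ⟨-, h4, hall⟩ := four_cycle hV4 hVs hVσ h3 hzV hne
  obtain ⟨ω⟩ := exists_coord_of_trans (F := F) hVσ hVs (fun x y hx hy hx1 hy1 => by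
    have h4 : ∀ x ∈ V, x ≠ 1 → ∃ k : ℕ, (σ ^ k) ⁅a, b⁆ = x := fun x hx hx1 => by
      rcases (hall x hx).resolve_left hx1 with rfl | rfl | rfl
      exacts [⟨0, rfl⟩, ⟨1, rfl⟩, ⟨2, h4⟩]
    obtain ⟨i, rfl⟩ := h4 x hx hx1
    obtain ⟨j, rfl⟩ := h4 y hy hy1
    refine ⟨j + 2 * i, ?_⟩
    rw [← MulAut.mul_apply, ← pow_add, show j + 2 * i + i = j + 3 * i by ring, pow_add, pow_mul,
      show σ ^ 3 = 1 from MulEquiv.ext h3, one_pow, mul_one]) (by omega) (by rw [hF, hV4])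
  have : Finite F := Nat.finite_of_card_ne_zero (by omega)
  have := Fintype.ofFinite F
  have hp : ∀ t : F, t ^ 4 = t := fun t => by rw [← hF, Nat.card_eq_fintype_card, FiniteField.pow_card]
  have hz0 : ω.c ⁅a, b⁆ ≠ 0 := fun e => h1 (mem_bot.1 ((ω.ker _ hzV).1 e))
  obtain ⟨φ, hφ⟩ : ∃ φ : T → F, ∀ v, φ v = (ω.c v / ω.c ⁅a, b⁆) ^ 2 := ⟨_, fun _ => rfl⟩
  have φadd : ∀ u ∈ V, ∀ v ∈ V, φ (u * v) = φ u + φ v := fun u hu v hv => by
    rw [hφ, hφ, hφ, ω.add u hu v hv, add_div, CharTwo.add_sq]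
  have φinj : ∀ u ∈ V, ∀ v ∈ V, φ u = φ v → u = v := fun u hu v hv e => by
    rw [hφ, hφ] at e
    exact inv_mul_eq_one.1 (mem_bot.1 (ω.inv_mul_mem hu hv
      ((div_left_inj' hz0).1 ((frobeniusEquiv F 2).injective e))))
  have φ1 : φ 1 = 0 := by simp [hφ, ω.c_one]
  have φz : φ ⁅a, b⁆ = 1 := by simp [hφ, hz0]
  have hsw : ∀ u v : T, ⁅u, v⁆ ∈ V → ⁅v, u⁆ = ⁅u, v⁆ := fun u v h => by
    rw [← commutatorElement_inv, inv_eq_of_mul_eq_one_right (hVs _ h)]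
  have scal : ∀ (u : T) (s : F), ∃ u' : T, (u * u = 1 → u' * u' = 1) ∧
      ∀ v, ⁅u, v⁆ ∈ V → ⁅u', v⁆ ∈ V ∧ φ ⁅u', v⁆ = s * φ ⁅u, v⁆ := fun u s => by
    by_cases hs : s = 0
    · exact ⟨1, fun _ => mul_one 1, fun v _ => by simp [hs, φ1]⟩
    obtain ⟨k, rfl⟩ := ω.gen.2 s hs
    refine ⟨(σ ^ k) u, fun e => by rw [← map_mul, e, map_one], fun v hv => ?_⟩
    clear hs
    induction k with
    | zero => simpa using hv
    | succ k ih =>
      rw [pow_succ', MulAut.mul_apply, f3_sig hT hσ h3]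
      refine ⟨hVσ _ (hVσ _ ih.1), ?_⟩
      rw [pow_succ', mul_assoc, ← ih.2, hφ, hφ, ω.act _ (hVσ _ ih.1), ω.act _ ih.1]
      linear_combination (ω.c ⁅(σ ^ k) u, v⁆ / ω.c ⁅a, b⁆) ^ 2 * hp ω.lam
  choose e he1 he2 using scal
  have haa : ⁅a, a⁆ ∈ V := by simp
  have hbb : ⁅b, b⁆ ∈ V := by simp
  have hba : ⁅b, a⁆ ∈ V := comm_swap hzV
  let N : Subgroup T :=
    { carrier := {y | ⁅y, b⁆ ∈ V ∧ ⁅y, a⁆ ∈ V}
      one_mem' := by simp
      mul_mem' := fun {x y} hx hy => by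
        simp only [Set.mem_ofPred_eq, f3_left hT hσ h3]
        exact ⟨V.mul_mem hx.1 hy.1, V.mul_mem hx.2 hy.2⟩
      inv_mem' := fun {x} hx => by
        have : ∀ y, ⁅x⁻¹, y⁆ = ⁅x, y⁆⁻¹ := fun y => eq_inv_of_mul_eq_one_left (by rw [← f3_left hT hσ h3]; simp)
        simp only [Set.mem_ofPred_eq, this]
        exact ⟨V.inv_mem hx.1, V.inv_mem hx.2⟩ }
  have hadd : ∀ x ∈ N, ∀ y ∈ N, (φ ⁅x * y, b⁆, φ ⁅x * y, a⁆) = (φ ⁅x, b⁆, φ ⁅x, a⁆) + (φ ⁅y, b⁆, φ ⁅y, a⁆) :=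
    fun x hx y hy => by rw [f3_left hT hσ h3, f3_left hT hσ h3, φadd _ hx.1 _ hy.1, φadd _ hx.2 _ hy.2]; rfl
  have hsN : ∀ s t, e a s ∈ N ∧ e b t ∈ N := fun s t =>
    ⟨⟨(he2 a s b hzV).1, (he2 a s a haa).1⟩, (he2 b t b hbb).1, (he2 b t a hba).1⟩
  have hs : ∀ s t, (φ ⁅e a s * e b t, b⁆, φ ⁅e a s * e b t, a⁆) = (s, t) := fun s t => by
    rw [hadd _ (hsN s t).1 _ (hsN s t).2, (he2 a s b hzV).2, (he2 a s a haa).2, (he2 b t b hbb).2,
      (he2 b t a hba).2, hsw a b hzV]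
    simp [φ1, φz]
  let f : N →* Multiplicative (F × F) := MonoidHom.mk' (fun y => Multiplicative.ofAdd (φ ⁅(y : T), b⁆, φ ⁅(y : T), a⁆))
    fun x y => by rw [← ofAdd_add, ← hadd _ x.2 _ y.2]; rfl
  have hf : f.range = ⊤ := MonoidHom.range_eq_top.2 fun v =>
    ⟨⟨_, N.mul_mem (hsN v.toAdd.1 v.toAdd.2).1 (hsN v.toAdd.1 v.toAdd.2).2⟩, congrArg Multiplicative.ofAdd (hs _ _)⟩
  have hV1 : ∀ v ∈ V, ∀ y : T, ⁅v, y⁆ = 1 := fun v hv y =>
    commutatorElement_eq_one_iff_mul_comm.2 (mem_center_iff.1 (hVc hv) y).symm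
  have hVN : V ≤ N := fun v hv => by
    change _ ∧ _
    simp [hV1 v hv]
  have hVk : V.subgroupOf N ≤ f.ker := fun v hv => congrArg Multiplicative.ofAdd (by
    rw [hV1 v hv, hV1 v hv, φ1]; rfl)
  have c1 := f.ker.card_mul_index
  rw [index_ker, hf, card_top, Nat.card_congr Multiplicative.toAdd, Nat.card_prod, hF] at c1
  have c2 := card_le_of_le hVk
  have c3 := Nat.card_congr (subgroupOfEquivOfLe hVN).toEquiv
  have c4 := card_le_card_group N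
  have hN := eq_top_of_card_eq N (by omega)
  have hker : ∀ y, (φ ⁅y, b⁆, φ ⁅y, a⁆) = 0 → y ∈ V := fun y hy =>
    (eq_of_le_of_card_ge hVk (by omega)).ge (show (⟨y, hN.ge (mem_top y)⟩ : N) ∈ f.ker from
      congrArg Multiplicative.ofAdd hy)
  replace hadd := fun x y => hadd x (hN.ge (mem_top x)) y (hN.ge (mem_top y))
  have hsq : ∀ y, y * y ∈ V := fun y => hker _ (by rw [hadd]; ext <;> exact CharTwo.add_self_eq_zero _)
  refine ⟨fun y hy hy' => hker y (by rw [hy, hy', φ1]; rfl), hsq, fun ha hb => ?_⟩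
  have hι : ∀ w, ∃ v ∈ V, φ v = w := fun w => ⟨_, (he2 a w b hzV).1, by rw [(he2 a w b hzV).2, φz, mul_one]⟩
  choose ι hιV hι using hι
  refine ⟨fun y => (φ ⁅y, b⁆, φ ⁅y, a⁆), ι, hadd, fun v => ⟨_, hs v.1 v.2⟩, fun w w' => φinj _ (hιV _) _
    (V.mul_mem (hιV _) (hιV _)) (by rw [φadd _ (hιV _) _ (hιV _), hι, hι, hι]), fun w w' e => by
      rw [← hι w, e, hι], fun y => ⟨fun e => ⟨_, φinj _ (hιV _) _ (hker y e) (hι _)⟩, ?_⟩,
    fun w y => mem_center_iff.1 (hVc (hιV w)) y, fun w => hVs _ (hιV w), fun y => φinj _ (hsq y) _ (hιV _) ?_⟩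
  · rintro ⟨w, rfl⟩
    simp only [hV1 _ (hιV w), φ1]
    rfl
  · obtain ⟨s, t, hst⟩ : ∃ s t, (φ ⁅y, b⁆, φ ⁅y, a⁆) = (s, t) := ⟨_, _, rfl⟩
    have h5 : y * (e a s * e b t) ∈ V := hker _ (by rw [hadd, hs, hst]; ext <;> exact CharTwo.add_self_eq_zero _)
    have h6 := hVs _ h5
    have h7 := (he2 b t a hba)
    have h8 := he2 a s _ (comm_swap h7.1)
    rw [f3_sq hT hσ h3 y, f3_sq hT hσ h3, he1 a s ha, he1 b t hb, mul_one, mul_one,
      show ⁅e a s * e b t, y⁆ = 1 by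
        rw [← inv_mul_cancel_left y (e a s * e b t), f3_left hT hσ h3, hV1 _ h5]; group, one_mul] at h6
    rw [hι, hst, eq_inv_of_mul_eq_one_left h6, commutatorElement_inv, h8.2, hsw _ _ h7.1, h7.2, hsw a b hzV, φz,
      mul_one]

theorem f3_inv (hc : Nat.card T = 64) (hna : ∃ a b : T, a * b ≠ b * a) {x : MulAut T} (hx : ∀ y, x (x y) = y)
    (hxσ : ∀ y, x (σ y) = σ (σ (x y))) {C : Subgroup T} (hC : ∀ y, y ∈ C ↔ x y = y) {F : Type*} [Field F]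
    [CharP F 2] (hF : Nat.card F = 4) :
    (∃ (π : T → F × F) (ι : F → T), Ext (fun v : F × F => v.1 * v.2) π ι) ∧
      (Nonempty (C ≃* DihedralGroup 4) ∨ Nonempty (C ≃* QuaternionGroup 2)) := by
  have hpow : ∀ (a b : T) (n : ℕ), ⁅a ^ n, b⁆ = ⁅a, b⁆ ^ n := fun a b n => by
    induction n with
    | zero => simp
    | succ n ih => rw [pow_succ, pow_succ, f3_left hT hσ h3, ih]
  have hsqc : ∀ y g : T, ⁅y * y, g⁆ = 1 := by
    obtain ⟨a, b, hab⟩ := hna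
    obtain ⟨j, h1, h2⟩ := exists_involution hT (mt commutatorElement_eq_one_iff_mul_comm.1 hab)
    rw [← hpow] at h1 h2
    intro y g
    refine commutatorElement_eq_one_iff_mul_comm.2 (mem_center_iff.1 ((closure_le (center T)).2 ?_
      ((f3_core hT hσ h3 hc hF h1 h2).2.1 y)) g).symm
    rintro _ (rfl | rfl)
    exacts [fpf3_commutator_mem_center hσ h3 hT _ b, sInv_center σ _ (fpf3_commutator_mem_center hσ h3 hT _ b)]
  have hc2 : ∀ u v : T, ⁅u, v⁆ * ⁅u, v⁆ = 1 := fun u v => by rw [← f3_left hT hσ h3, hsqc]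
  have hsw : ∀ u v : T, ⁅v, u⁆ = ⁅u, v⁆ := fun u v => by
    rw [← commutatorElement_inv, inv_eq_of_mul_eq_one_right (hc2 u v)]
  have hn : ∀ z : T, σ z * σ z = 1 → z * σ (σ z) = σ z := fun z hz => by
    rw [eq_inv_of_mul_eq_one_right (fpf3_norm hσ h3 z), mul_inv_rev, inv_eq_of_mul_eq_one_right hz,
      ← mul_assoc, (fpf3_commute hσ h3 z).eq, mul_inv_cancel_right]
  have hfix : ∀ y : T, ∃ c ∈ C, ∀ v, ⁅y * x y, v⁆ = ⁅c, v⁆ := fun y => by
    have h1 : x (y * x y) = y * x y * ⁅x y, y⁆ := by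
      rw [map_mul, hx, f3_cen hT hσ h3]
      group
    have h2 : x ⁅x y, y⁆ = ⁅x y, y⁆ := by rw [map_commutatorElement, hx, hsw]
    refine ⟨y * x y * σ ⁅x y, y⁆, (hC _).2 ?_, fun v => ?_⟩
    · rw [map_mul, h1, hxσ, h2, mul_assoc, hn _ (by rw [← map_mul, hc2, map_one])]
    · rw [f3_left hT hσ h3 _ (σ _), map_commutatorElement,
        commutatorElement_eq_one_iff_mul_comm.2 (f3_cen hT hσ h3 _ _ v).symm, mul_one]
  have hcen : ∀ v : T, (∀ c ∈ C, ⁅c, v⁆ = 1) → ∀ y : T, ⁅y, v⁆ = 1 := fun v hv y => by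
    obtain ⟨c, hc, h1⟩ := hfix y
    obtain ⟨c', hc', h2⟩ := hfix (σ y)
    have h4 := h1 v
    have h5 := h2 v
    rw [hv c hc, f3_left hT hσ h3] at h4
    rw [hv c' hc', f3_left hT hσ h3, hxσ, f3_sig hT hσ h3, f3_sig hT hσ h3, f3_sig hT hσ h3, h3,
      eq_inv_of_mul_eq_one_right h4, inv_eq_of_mul_eq_one_right (hc2 _ _), ← map_mul, σ.map_eq_one_iff] at h5
    exact hσ _ ((eq_inv_of_mul_eq_one_left h5).trans (inv_eq_of_mul_eq_one_right (hc2 _ _)))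
  obtain ⟨a, ha, b, hb, h1⟩ : ∃ a ∈ C, ∃ b ∈ C, ⁅a, b⁆ ≠ 1 := by
    by_contra! h
    obtain ⟨a, b, hab⟩ := hna
    exact hab (commutatorElement_eq_one_iff_mul_comm.1
      (hcen b (fun c hc => by rw [hsw, hcen c (fun c' hc' => h c' hc' c hc)]) a))
  have h2 := hc2 a b
  obtain ⟨hk, hsq, -⟩ := f3_core hT hσ h3 hc hF h1 h2
  have hcC : ∀ u ∈ C, ∀ v ∈ C, ⁅u, v⁆ ∈ C := fun u hu v hv =>
    C.mul_mem (C.mul_mem (C.mul_mem hu hv) (C.inv_mem hu)) (C.inv_mem hv)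
  have hz := (hC _).1 (hcC a ha b hb)
  have h2' : σ ⁅a, b⁆ * σ ⁅a, b⁆ = 1 := by rw [← map_mul, h2, map_one]
  have hCV : ∀ v ∈ C, v ∈ closure {⁅a, b⁆, σ ⁅a, b⁆} → v = 1 ∨ v = ⁅a, b⁆ := fun v hv hv' => by
    rw [hC] at hv
    rcases (Invol.mem_closure_pair_of_commute h2 h2' (fpf3_commute hσ h3 _) v).1 hv' with rfl | rfl | rfl | rfl
    · exact Or.inl rfl
    · exact Or.inr rfl
    · rw [hxσ, hz] at hv
      exact absurd (hσ _ (σ.injective hv)) h1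
    · rw [map_mul, hxσ, hz, mul_right_inj] at hv
      exact absurd (hσ _ (σ.injective hv)) h1
  have hcc : ∀ u ∈ C, ∀ v ∈ C, ⁅u, v⁆ = 1 ∨ ⁅u, v⁆ = ⁅a, b⁆ := fun u hu v hv => hCV _ (hcC u hu v hv) (hk _
    (commutatorElement_eq_one_iff_mul_comm.2 (f3_cen hT hσ h3 _ _ _).symm)
    (commutatorElement_eq_one_iff_mul_comm.2 (f3_cen hT hσ h3 _ _ _).symm))
  refine ⟨?_, ?_⟩
  · have key : ∀ a' b' : T, ⁅a', b'⁆ = ⁅a, b⁆ → a' * a' = 1 → b' * b' = 1 →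
        ∃ (π : T → F × F) (ι : F → T), Ext (fun v : F × F => v.1 * v.2) π ι := fun a' b' e =>
      (f3_core hT hσ h3 hc hF (e ▸ h1) (e ▸ h2)).2.2
    rcases hCV _ (C.mul_mem ha ha) (hsq a) with e | e <;> rcases hCV _ (C.mul_mem hb hb) (hsq b) with e' | e'
    · exact key a b rfl e e'
    · exact key a (a * b) (by rw [f3_right hT hσ h3]; simp) e (by rw [f3_sq hT hσ h3, e, e', hsw, mul_one, h2])
    · exact key (a * b) b (by rw [f3_left hT hσ h3]; simp) (by rw [f3_sq hT hσ h3, e, e', hsw, mul_one, h2]) e'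
    · refine key (a * σ b) (a * σ (σ b)) ?_ ?_ ?_
      · have := fpf3_norm hσ h3 (σ ⁅a, b⁆)
        rw [f3_left hT hσ h3, f3_right hT hσ h3, f3_right hT hσ h3, (fpf3_commute hσ h3 (σ b)).commutator_eq,
          commutatorElement_self, hsw (σ (σ b)), f3_sig hT hσ h3, f3_sig hT hσ h3, h3, hsw a b, one_mul, mul_one,
          eq_inv_of_mul_eq_one_left this, h3, inv_eq_of_mul_eq_one_right h2]
      · have := fpf3_norm hσ h3 (σ (σ ⁅a, b⁆))
        rw [f3_sq hT hσ h3, e, ← map_mul, e', f3_sig hT hσ h3, hsw, ← this, h3]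
      · rw [f3_sq hT hσ h3, e, ← map_mul, ← map_mul, e', f3_sig hT hσ h3, f3_sig hT hσ h3, h3, hsw,
          ← (fpf3_commute hσ h3 _).eq, fpf3_norm hσ h3]
  · have ho : Nat.card (zpowers ⁅a, b⁆) = 2 := by rw [Nat.card_zpowers, orderOf_eq_prime (by rw [sq, h2]) h1]
    have hzp : ∀ v, v = 1 ∨ v = ⁅a, b⁆ → v ∈ zpowers ⁅a, b⁆ := by
      rintro _ (rfl | rfl)
      exacts [one_mem _, mem_zpowers _]
    have c1 := Tri.card_le_of_commutator_mem (C := C) (y := a) fun w hw => hzp _ (hcc a ha w hw)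
    have c2 := Tri.card_le_of_commutator_mem (C := centralizer {a} ⊓ C) (y := b) fun w hw => hzp _ (hcc b hb w hw.2)
    have c3 := card_le_of_le (show centralizer {b} ⊓ (centralizer {a} ⊓ C) ≤ zpowers ⁅a, b⁆ from fun w hw =>
      hzp _ (hCV w hw.2.2 (hk w
        (commutatorElement_eq_one_iff_mul_comm.2 (mem_centralizer_singleton_iff.1 hw.2.1))
        (commutatorElement_eq_one_iff_mul_comm.2 (mem_centralizer_singleton_iff.1 hw.1)))))
    have hlt : ∀ A B : Subgroup T, A ≤ B → ¬ B ≤ A → 2 * Nat.card A ≤ Nat.card B := fun A B h h' => by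
      obtain ⟨k, hk⟩ := card_dvd_of_le h
      have : k ≠ 1 := fun e => h' (eq_of_le_of_card_ge h (by simp [hk, e])).ge
      have : k ≠ 0 := fun e => Nat.card_pos.ne' (by simpa [e] using hk)
      rw [hk, mul_comm]
      exact Nat.mul_le_mul_left _ (by omega)
    have c4 := hlt (zpowers ⁅a, b⁆) (centralizer {a} ⊓ C) (zpowers_le.2
      ⟨mem_centralizer_singleton_iff.2 (f3_cen hT hσ h3 _ _ _).symm, hcC a ha b hb⟩) fun h => h1 (by
        obtain ⟨k, hk⟩ := h ⟨mem_centralizer_singleton_iff.2 rfl, ha⟩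
        nth_rw 1 [← hk]
        exact (Commute.zpow_left (f3_cen hT hσ h3 a b b).symm k).commutator_eq)
    have c5 := hlt (centralizer {a} ⊓ C) C inf_le_right fun h => h1
      (commutatorElement_eq_one_iff_mul_comm.2 (mem_centralizer_singleton_iff.1 (h hb).1).symm)
    have c6 : commutator C = (zpowers ⁅a, b⁆).subgroupOf C := le_antisymm
      (commutator_le.2 fun u _ v _ => hzp _ (hcc u u.2 v v.2)) (by
        rw [← map_subtype_le_map_subtype, subgroupOf_map_subtype]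
        exact inf_le_left.trans (zpowers_le.2 ⟨⁅⟨a, ha⟩, ⟨b, hb⟩⁆,
          commutator_mem_commutator (mem_top _) (mem_top _), rfl⟩))
    have c7 := (commutator C).card_mul_index
    rw [c6, Nat.card_congr (subgroupOfEquivOfLe (zpowers_le.2 (hcC a ha b hb))).toEquiv, ← c6] at c7
    rw [ho] at c1 c2 c3 c4 c7
    rcases PGroup.dihedral_or_semidihedral_or_quaternion_of_index_commutator (G := C) (k := 0) (by omega)
      (by omega) with h | h | h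
    exacts [Or.inl h, Or.inr h, absurd h.1 (by omega)]

end CfsgLib.TwoGrp2
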