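import Mathlib
import Cfsg.Agent.Lib.Suz2.Main
import Cfsg.Agent.Lib.TwoGrp.TriMain
import Cfsg.Agent.Lib.Core.Basic

/-! Groups of order 64 with center a four-group and an automorphism of order 5; groups of order 320. -/

set_option autoImplicit false

namespace CfsgLib.TwoGrp2

open Subgroup CfsgLib.TwoGrp CfsgLib.Suz2
open scoped commutatorElement

variable {G : Type*} [Group G]

theorem card_modEq_fix [Finite G] {p : ℕ} [Fact p.Prime] {σ : MulAut G} (hσ : σ ^ p = 1) {K C : Subgroup G}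
    (hK : SInv σ K) (hC : ∀ x, x ∈ C ↔ σ x = x) : Nat.card K ≡ Nat.card (K ⊓ C : Subgroup G) [MOD p] := by
  classical
  have := Fintype.ofFinite K
  let f : Function.End K := fun x => ⟨σ x, hK x x.2⟩
  have hf : ∀ (n : ℕ) (x : K), ((f ^ n) x : G) = (σ ^ n) x := fun n x => by
    induction n with
    | zero => rfl
    | succ n ih => rw [pow_succ', pow_succ', MulAut.mul_apply, ← ih]; rfl
  have := Equiv.Perm.card_fixedPoints_modEq (f := f) (p := p) (n := 1) (funext fun x => Subtype.ext (by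
    rw [hf, pow_one, hσ]; rfl))
  rw [← Nat.card_eq_fintype_card, ← Nat.card_eq_fintype_card] at this
  convert this using 1
  exact Nat.card_congr ⟨fun x => ⟨⟨x, x.2.1⟩, Subtype.ext ((hC x).1 x.2.2)⟩,
    fun x => ⟨x.1, x.1.2, (hC _).2 (congrArg Subtype.val x.2)⟩, fun _ => rfl, fun _ => rfl⟩

section cls
variable (hc : ∀ a b g : G, g * ⁅a, b⁆ = ⁅a, b⁆ * g)
include hc

theorem c2_left (a b y : G) : ⁅a * b, y⁆ = ⁅a, y⁆ * ⁅b, y⁆ := by
  rw [hc, ← mul_inv_cancel_right ⁅b, y⁆ a, ← hc b y a]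
  group

theorem c2_right (y a b : G) : ⁅y, a * b⁆ = ⁅y, a⁆ * ⁅y, b⁆ := by
  rw [← mul_inv_cancel_right ⁅y, b⁆ a, ← hc y b a]
  group

theorem c2_sq (u v : G) : u * v * (u * v) = ⁅v, u⁆ * (u * u) * (v * v) := by
  rw [mul_mul_mul_eq_commutator, hc, mul_assoc _ u u]

end cls

/-- relations of a Sylow 2-subgroup of `U₃(4)` adapted to an automorphism of order 5 -/
structure R64 (a b c d u w : G) : Prop where
  uu : u * u = 1
  ww : w * w = 1
  uw : ⁅u, w⁆ = 1
  ua : ⁅u, a⁆ = 1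
  ub : ⁅u, b⁆ = 1
  uc : ⁅u, c⁆ = 1
  ud : ⁅u, d⁆ = 1
  wa : ⁅w, a⁆ = 1
  wb : ⁅w, b⁆ = 1
  wc : ⁅w, c⁆ = 1
  wd : ⁅w, d⁆ = 1
  ab : ⁅a, b⁆ = u
  ac : ⁅a, c⁆ = w
  ad : ⁅a, d⁆ = w
  bc : ⁅b, c⁆ = u
  bd : ⁅b, d⁆ = w
  cd : ⁅c, d⁆ = u
  aa : a * a = u * w
  bb : b * b = u * w
  cc : c * c = u * w
  dd : d * d = u * w

theorem R64.map {H : Type*} [Group H] {a b c d u w : G} (h : R64 a b c d u w) (f : G →* H) :
    R64 (f a) (f b) (f c) (f d) (f u) (f w) := by
  constructor <;> simp only [← map_mul, ← map_commutatorElement, h.uu, h.ww, h.uw, h.ua, h.ub, h.uc, h.ud, h.wa, h.wb,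
    h.wc, h.wd, h.ab, h.ac, h.ad, h.bc, h.bd, h.cd, h.aa, h.bb, h.cc, h.dd, map_one]

theorem R64.card_le [Finite G] {a b c d u w : G} (h : R64 a b c d u w) :
    Nat.card (closure ({d, c, b, a, w, u} : Set G)) ≤ 64 := by
  have m : ∀ {S : Set G}, u ∈ S → w ∈ S → u * w ∈ closure S := fun h1 h2 =>
    mul_mem (subset_closure h1) (subset_closure h2)
  have h1 : Nat.card (closure ({u} : Set G)) ≤ 2 := by
    rw [← zpowers_eq_closure, Nat.card_zpowers]
    exact Nat.le_of_dvd two_pos (orderOf_dvd_of_pow_eq_one (by rw [sq, h.uu]))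
  have h2 := card_closure_insert_le (S := {u}) (y := w) (by simp [h.uw]) (h.ww ▸ one_mem _)
  have h3 := card_closure_insert_le (S := {w, u}) (y := a) (by simp [h.ua, h.wa]) (h.aa ▸ m (by simp) (by simp))
  have h4 := card_closure_insert_le (S := {a, w, u}) (y := b) (by
    simp only [Set.mem_insert_iff, Set.mem_singleton_iff, forall_eq_or_imp, forall_eq, h.ab, h.ub, h.wb, one_mem,
      and_true]
    exact subset_closure (by simp)) (h.bb ▸ m (by simp) (by simp))
  have h5 := card_closure_insert_le (S := {b, a, w, u}) (y := c) (by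
    simp only [Set.mem_insert_iff, Set.mem_singleton_iff, forall_eq_or_imp, forall_eq, h.ac, h.bc, h.uc, h.wc, one_mem,
      and_true]
    exact ⟨subset_closure (by simp), subset_closure (by simp)⟩) (h.cc ▸ m (by simp) (by simp))
  have h6 := card_closure_insert_le (S := {c, b, a, w, u}) (y := d) (by
    simp only [Set.mem_insert_iff, Set.mem_singleton_iff, forall_eq_or_imp, forall_eq, h.ad, h.bd, h.cd, h.ud, h.wd,
      one_mem, and_true]
    exact ⟨subset_closure (by simp), subset_closure (by simp), subset_closure (by simp)⟩)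
      (h.dd ▸ m (by simp) (by simp))
  omega

theorem R64.sInv {a b c d u w : G} {σ : MulAut G} (h1 : σ a = b) (h2 : σ b = c) (h3 : σ c = d)
    (h4 : σ d = (a * b * c * d)⁻¹) (h5 : σ u = u) (h6 : σ w = w) : SInv σ (closure {d, c, b, a, w, u}) :=
  fun _ hv => mem_comap.1 ((closure_le (comap σ.toMonoidHom (closure {d, c, b, a, w, u}))).2 (by
    have m : ∀ x ∈ ({d, c, b, a, w, u} : Set G), x ∈ closure {d, c, b, a, w, u} := fun x hx => subset_closure hx
    rintro _ (rfl | rfl | rfl | rfl | rfl | rfl) <;> change σ _ ∈ Subgroup.closure _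
    · rw [h4]
      exact inv_mem (mul_mem (mul_mem (mul_mem (m _ (by simp)) (m _ (by simp))) (m _ (by simp))) (m _ (by simp)))
    all_goals exact m _ (by simp [*])) hv)

theorem exists_R64 [Finite G] (hG : Nat.card G = 64) (hZ : IsKleinFour (center G)) {σ : MulAut G} (h5 : σ ^ 5 = 1)
    (h1 : σ ≠ 1) (hgen : (∀ z ∈ center G, σ z = z) → ∀ H, SInv σ H → H ⊔ center G = ⊤ → H = ⊤) :
    ∃ a b c d u w : G, R64 a b c d u w ∧ closure {d, c, b, a, w, u} = ⊤ ∧ σ a = b ∧ σ b = c ∧ σ c = d ∧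
      σ d = (a * b * c * d)⁻¹ ∧ σ u = u ∧ σ w = w := by
  have : Fact (Nat.Prime 5) := ⟨Nat.prime_five⟩
  have hP : IsPGroup 2 G := .of_card (n := 6) hG
  have hZ4 := hZ.card_four
  have hZ2 : ∀ z ∈ center G, z * z = 1 := fun z hz => congrArg Subtype.val (IsKleinFour.mul_self (⟨z, hz⟩ : center G))
  have h5' : ∀ x, σ (σ (σ (σ (σ x)))) = x := fun x => DFunLike.congr_fun h5 x
  let C := σ.toMonoidHom.eqLocus (MonoidHom.id G)
  have hC : ∀ x, x ∈ C ↔ σ x = x := fun _ => Iff.rfl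
  have hpow : ∀ K : Subgroup G, Nat.card K % 5 = 4 → Nat.card K = 4 ∨ K = ⊤ := fun K hK => by
    have := card_subgroup_dvd_card K
    rw [hG, show 64 = 2 ^ 6 from rfl, Nat.dvd_prime_pow Nat.prime_two] at this
    obtain ⟨k, hk, e⟩ := this
    rw [← card_eq_iff_eq_top, hG]
    rw [e] at hK ⊢
    interval_cases k <;> simp at hK ⊢
  have hZC : center G ≤ C := by
    have h := card_modEq_fix h5 (sInv_center σ) hC
    have := card_le_of_le (inf_le_left : center G ⊓ C ≤ _)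
    exact inf_eq_left.1 (eq_of_le_of_card_ge inf_le_left (by unfold Nat.ModEq at h; omega))
  have hCZ : center G = C := by
    have h := card_modEq_fix h5 (sInv_top σ) hC
    rw [card_top, top_inf_eq, hG] at h
    rcases hpow C h.symm with e | e
    · exact eq_of_le_of_card_ge hZC (by omega)
    · exact absurd (MulEquiv.ext fun x => (hC x).1 (e.ge (mem_top x))) h1
  have big : ∀ K, SInv σ K → center G ≤ K → ¬ K ≤ center G → K = ⊤ := fun K hK h1 h2 => by
    have h := card_modEq_fix h5 hK hC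
    rw [← hCZ, inf_eq_right.2 h1, hZ4] at h
    exact (hpow K h).resolve_left fun e => h2 (eq_of_le_of_card_ge h1 (by omega)).ge
  obtain ⟨a₀, -, ha₀, -, ha₀c⟩ := PGroup.exists_central_mod_pow_mem hP (M := ⊤) (N := center G) fun h => by
    rw [top_le_iff.1 h, card_top] at hZ4
    omega
  have hcz : ∀ x y : G, ⁅x, y⁆ ∈ center G := fun x y => (big (commSub (center G) inferInstance Set.univ)
    (fun x hx g _ => by
      obtain ⟨g, rfl⟩ := σ.surjective g
      rw [← map_commutatorElement]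
      exact sInv_center σ _ (hx g trivial))
    (fun z hz g _ => by rw [commutatorElement_eq_one_iff_mul_comm.2 (mem_center_iff.1 hz g).symm]; exact one_mem _)
    (fun h => ha₀ (h fun g _ => ha₀c g))).ge (mem_top x) y trivial
  have hc : ∀ a b g : G, g * ⁅a, b⁆ = ⁅a, b⁆ * g := fun a b => mem_center_iff.1 (hcz a b)
  have hsq : ∀ x : G, x * x ∈ center G := fun x => mem_center_iff.2 fun g =>
    (commutatorElement_eq_one_iff_mul_comm.1 (by rw [c2_left hc, hZ2 _ (hcz _ _)])).symm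
  have hsw : ∀ u v : G, ⁅v, u⁆ = ⁅u, v⁆ := fun u v => by
    rw [← commutatorElement_inv, inv_eq_of_mul_eq_one_right (hZ2 _ (hcz u v))]
  have hcσ : ∀ x y : G, ⁅σ x, σ y⁆ = ⁅x, y⁆ := fun x y => by rw [← map_commutatorElement]; exact hZC (hcz x y)
  have hz1 : ∀ x y g : G, ⁅⁅x, y⁆, g⁆ = 1 := fun x y g => commutatorElement_eq_one_iff_mul_comm.2 (hc x y g).symm
  obtain ⟨a, ha, hn⟩ : ∃ a ∉ center G, a * σ a * σ (σ a) * σ (σ (σ a)) * σ (σ (σ (σ a))) = 1 := by
    obtain ⟨n, hn⟩ : ∃ n, n = a₀ * σ a₀ * σ (σ a₀) * σ (σ (σ a₀)) * σ (σ (σ (σ a₀))) := ⟨_, rfl⟩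
    have e1 : σ n = n * ⁅n⁻¹, a₀⁻¹⁆ := by
      nth_rw 1 [hn]
      simp only [map_mul, h5']
      rw [show n * ⁅n⁻¹, a₀⁻¹⁆ = a₀⁻¹ * n * a₀ by group, hn]
      group
    have e2 : σ (σ n) = n := by rw [e1, map_mul, e1, (hC _).1 (hZC (hcz _ _)), mul_assoc, hZ2 _ (hcz _ _), mul_one]
    have e3 : σ n = n := by have := h5' n; rwa [e2, e2] at this
    have e4 : n ∈ center G := hCZ.ge e3
    refine ⟨a₀ * n, fun h => ha₀ ((center G).mul_mem_cancel_right e4 |>.1 h), ?_⟩
    have e5 : ∀ x y, x * n * (y * n) = x * y := fun x y => by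
      rw [mul_assoc x, ← mul_assoc n, ← mem_center_iff.1 e4, mul_assoc y, hZ2 n e4, mul_one]
    simp only [map_mul, e3]
    rw [e5, mul_assoc (a₀ * σ a₀), e5, ← mul_assoc, ← mul_assoc, ← hn, hZ2 n e4]
  have hs : σ (a * a) = a * a := hZC (hsq a)
  have e4 : σ (σ (σ (σ a))) = (a * σ a * σ (σ a) * σ (σ (σ a)))⁻¹ := eq_inv_of_mul_eq_one_right hn
  have ad : ⁅a, σ (σ (σ a))⁆ = ⁅a, σ (σ a)⁆ := by rw [← hcσ, ← hcσ, h5', hsw]
  have aa : a * a = ⁅a, σ a⁆ * ⁅a, σ (σ a)⁆ := by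
    have e : σ (σ (σ (σ (a * a)))) = a * a := by rw [hs, hs, hs, hs]
    rw [map_mul, map_mul, map_mul, map_mul, e4, ← mul_inv_rev, c2_sq hc, c2_sq hc, c2_sq hc, ← map_mul, ← map_mul,
      ← map_mul, ← map_mul, ← map_mul, ← map_mul, hs, hs, hs, c2_right hc, c2_right hc, c2_right hc, hsw _ (σ (σ (σ a))),
      hsw _ (σ (σ (σ a))), hsw _ (σ (σ (σ a))), hsw _ (σ (σ a)), hsw _ (σ (σ a)), hsw _ (σ a), ad, hcσ, hcσ,
      hcσ] at e
    have hu := hZ2 _ (hcz a (σ a))
    have hw := hZ2 _ (hcz a (σ (σ a)))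
    have ha := hZ2 _ (hsq a)
    rw [hsw a (σ a), hsw a (σ (σ a)), hw, one_mul, mul_assoc _ (a * a), ha, mul_one, mul_assoc _ _ ⁅a, σ a⁆, hu, mul_one,
      mul_assoc, mul_assoc, ha, mul_one] at e
    rw [← e, mul_inv_rev, inv_eq_of_mul_eq_one_right hu, inv_eq_of_mul_eq_one_right hw, hc]
  have hH := R64.sInv rfl rfl rfl e4 (hZC (hcz a (σ a))) (hZC (hcz a (σ (σ a))))
  refine ⟨a, σ a, σ (σ a), σ (σ (σ a)), ⁅a, σ a⁆, ⁅a, σ (σ a)⁆, ⟨hZ2 _ (hcz _ _), hZ2 _ (hcz _ _), hz1 _ _ _,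
    hz1 _ _ _, hz1 _ _ _, hz1 _ _ _, hz1 _ _ _, hz1 _ _ _, hz1 _ _ _, hz1 _ _ _, hz1 _ _ _, rfl, rfl, ad, hcσ _ _,
    hcσ _ _, by rw [hcσ, hcσ], aa, by rw [← map_mul, hs, aa], by rw [← map_mul, ← map_mul, hs, hs, aa],
    by rw [← map_mul, ← map_mul, ← map_mul, hs, hs, hs, aa]⟩, hgen hZC _ hH (big _ (hH.sup (sInv_center σ))
      le_sup_right fun h => ha (h (mem_sup_left (subset_closure (by simp))))), rfl, rfl, rfl, e4, hZC (hcz _ _),
    hZC (hcz _ _)⟩

/-- `G` has order 320 and the presentation of the centralizer of an involution in `U₃(4)` -/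
def Is320 (G : Type*) [Group G] : Prop :=
  Nat.card G = 320 ∧ ∃ a b c d u w g : G, R64 a b c d u w ∧ closure {g, d, c, b, a, w, u} = ⊤ ∧ g ^ 5 = 1 ∧
    g * a * g⁻¹ = b ∧ g * b * g⁻¹ = c ∧ g * c * g⁻¹ = d ∧ g * d * g⁻¹ = (a * b * c * d)⁻¹ ∧ g * u * g⁻¹ = u ∧
      g * w * g⁻¹ = w

theorem Is320.nonempty_equiv {H : Type*} [Group H] (hG : Is320 G) (hH : Is320 H) : Nonempty (G ≃* H) := by
  obtain ⟨cG, a, b, c, d, u, w, g, h, hg, h0, h1, h2, h3, h4, h5, h6⟩ := hG
  obtain ⟨cH, a', b', c', d', u', w', g', h', hg', h0', h1', h2', h3', h4', h5', h6'⟩ := hH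
  have : Finite G := Nat.finite_of_card_ne_zero (by omega)
  have : Finite H := Nat.finite_of_card_ne_zero (by omega)
  have hp : R64 ((a, a') : G × H) (b, b') (c, c') (d, d') (u, u') (w, w') :=
    ⟨Prod.ext h.uu h'.uu, Prod.ext h.ww h'.ww, Prod.ext h.uw h'.uw, Prod.ext h.ua h'.ua, Prod.ext h.ub h'.ub,
      Prod.ext h.uc h'.uc, Prod.ext h.ud h'.ud, Prod.ext h.wa h'.wa, Prod.ext h.wb h'.wb, Prod.ext h.wc h'.wc,
      Prod.ext h.wd h'.wd, Prod.ext h.ab h'.ab, Prod.ext h.ac h'.ac, Prod.ext h.ad h'.ad, Prod.ext h.bc h'.bc,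
      Prod.ext h.bd h'.bd, Prod.ext h.cd h'.cd, Prod.ext h.aa h'.aa, Prod.ext h.bb h'.bb, Prod.ext h.cc h'.cc,
      Prod.ext h.dd h'.dd⟩
  have c1 := hp.card_le
  have c2 := Nat.le_of_dvd (Nat.mul_pos Nat.card_pos Nat.card_pos) (Core.card_sup_dvd_of_le_normalizer
    (zpowers_le.2 (mem_normalizer_fintype (R64.sInv (σ := MulAut.conj ((g, g') : G × H))
      (a := (a, a')) (b := (b, b')) (c := (c, c')) (d := (d, d')) (u := (u, u')) (w := (w, w')) (Prod.ext h1 h1')
      (Prod.ext h2 h2') (Prod.ext h3 h3') (Prod.ext h4 h4') (Prod.ext h5 h5') (Prod.ext h6 h6')))))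
  have c3 : Nat.card (zpowers ((g, g') : G × H)) ≤ 5 := by
    rw [Nat.card_zpowers]
    exact Nat.le_of_dvd (by norm_num) (orderOf_dvd_of_pow_eq_one (Prod.ext h0 h0'))
  rw [zpowers_eq_closure, ← Subgroup.closure_union, ← Set.insert_eq, ← zpowers_eq_closure] at c2
  have hc := c2.trans (Nat.mul_le_mul c3 c1)
  set D := closure ({(g, g'), (d, d'), (c, c'), (b, b'), (a, a'), (w, w'), (u, u')} : Set (G × H)) with hD
  have s1 : Function.Surjective ((MonoidHom.fst G H).comp D.subtype) := by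
    rw [← MonoidHom.range_eq_top, MonoidHom.range_comp, range_subtype, hD, MonoidHom.map_closure, ← hg]
    simp [Set.image_insert_eq]
  have s2 : Function.Surjective ((MonoidHom.snd G H).comp D.subtype) := by
    rw [← MonoidHom.range_eq_top, MonoidHom.range_comp, range_subtype, hD, MonoidHom.map_closure, ← hg']
    simp [Set.image_insert_eq]
  exact ⟨(MulEquiv.ofBijective _ (s1.bijective_of_nat_card_le (cG ▸ hc))).symm.trans
    (MulEquiv.ofBijective _ (s2.bijective_of_nat_card_le (cH ▸ hc)))⟩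

theorem sup_zpowers_eq_top (hG : Nat.card G = 320) {P : Subgroup G} (hP : Nat.card P = 64) {g : G}
    (hg : orderOf g = 5) : P ⊔ zpowers g = ⊤ := by
  have : Finite G := Nat.finite_of_card_ne_zero (by omega)
  have h1 := card_dvd_of_le (le_sup_left : P ≤ P ⊔ zpowers g)
  have h2 := card_dvd_of_le (le_sup_right : _ ≤ P ⊔ zpowers g)
  rw [Nat.card_zpowers, hg] at h2
  rw [hP] at h1
  have := card_le_card_group (P ⊔ zpowers g)
  have : 0 < Nat.card (P ⊔ zpowers g : Subgroup G) := Nat.card_pos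
  exact eq_top_of_card_eq _ (by omega)

theorem is320 (hG : Nat.card G = 320) {P : Subgroup G} [P.Normal] (hP : Nat.card P = 64)
    (hZ : IsKleinFour (center P)) {g : G} (hg : orderOf g = 5) (h1 : MulAut.conjNormal (H := P) g ≠ 1)
    (hgen : (∀ z ∈ center P, MulAut.conjNormal g z = z) → ∀ H : Subgroup P, SInv (MulAut.conjNormal g) H →
      H ⊔ center P = ⊤ → H = ⊤) : Is320 G := by
  have : Finite G := Nat.finite_of_card_ne_zero (by omega)
  have h5 : g ^ 5 = 1 := by rw [← hg, pow_orderOf_eq_one]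
  obtain ⟨a, b, c, d, u, w, h, ht, h1, h2, h3, h4, h5', h6⟩ := exists_R64 hP hZ (by rw [← map_pow, h5, map_one]) h1 hgen
  refine ⟨hG, a, b, c, d, u, w, g, h.map P.subtype, ?_, h5, congrArg Subtype.val h1, congrArg Subtype.val h2,
    congrArg Subtype.val h3, congrArg Subtype.val h4, congrArg Subtype.val h5', congrArg Subtype.val h6⟩
  have := congrArg (map P.subtype) ht
  rw [MonoidHom.map_closure, ← MonoidHom.range_eq_map, range_subtype] at this
  rw [Set.insert_eq, Subgroup.closure_union, ← zpowers_eq_closure, sup_comm, ← sup_zpowers_eq_top hG hP hg]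
  simp only [Set.image_insert_eq, Set.image_singleton, coe_subtype] at this
  rw [this]

theorem is320_of_commutator (hG : Nat.card G = 320) (hD : Nat.card (commutator G) = 64)
    (hZ : IsKleinFour (center (commutator G))) : Is320 G := by
  have : Finite G := Nat.finite_of_card_ne_zero (by omega)
  have : Fact (Nat.Prime 5) := ⟨Nat.prime_five⟩
  obtain ⟨g, hg⟩ := exists_prime_orderOf_dvd_card' (G := G) 5 (by rw [hG]; norm_num)
  have key : ∀ H : Subgroup (commutator G), (∀ x y : commutator G, ⁅x, y⁆ ∈ H) →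
      (∀ x, x⁻¹ * MulAut.conjNormal g x ∈ H) → H = ⊤ := by
    intro H h1 h2
    have h3 : SInv (MulAut.conjNormal g) H := fun x hx => by simpa using H.mul_mem hx (h2 x)
    have hn : (H.map (commutator G).subtype).Normal := normalizer_eq_top_iff.1 (top_le_iff.1 (by
      rw [← sup_zpowers_eq_top hG hD hg]
      refine sup_le (fun x hx => mem_normalizer_fintype ?_) (zpowers_le.2 (mem_normalizer_fintype ?_))
      · rintro _ ⟨y, hy, rfl⟩
        exact ⟨_, H.mul_mem (h1 ⟨x, hx⟩ y) hy, by simp [commutatorElement_def]⟩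
      · rintro _ ⟨y, hy, rfl⟩
        exact ⟨_, h3 y hy, rfl⟩))
    have h4 : ∀ y : G, (∀ x ∈ commutator G, ⁅x, y⁆ ∈ H.map (commutator G).subtype) →
        ⁅g, y⁆ ∈ H.map (commutator G).subtype → ∀ x : G, ⁅x, y⁆ ∈ H.map (commutator G).subtype := fun y h h' x =>
      (sup_le (fun x hx _ e => e ▸ h x hx) (zpowers_le.2 fun _ e => e ▸ h') : _ ≤ commSub _ hn {y})
        ((sup_zpowers_eq_top hG hD hg).ge (mem_top x)) y rfl
    have h5 : ∀ x ∈ commutator G, ⁅g, x⁆ ∈ H.map (commutator G).subtype := fun x hx =>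
      ⟨_, H.inv_mem (h2 ⟨x, hx⟩⁻¹), by simp [commutatorElement_def, mul_assoc]⟩
    have h6 : commutator G ≤ H.map (commutator G).subtype := commutator_le.2 fun x _ y _ =>
      h4 y (fun x hx => comm_swap (h4 x (fun z hz => ⟨_, h1 ⟨z, hz⟩ ⟨x, hx⟩, rfl⟩) (h5 x hx) y))
        (comm_swap (h4 g (fun z hz => comm_swap (h5 z hz)) (by simp) y)) x
    exact top_le_iff.1 fun x _ => by simpa using h6 x.2
  refine is320 hG hD hZ hg (fun e => ?_) fun hz H hH e => key H (fun x y => ?_) fun x => ?_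
  · have : Nontrivial (commutator G) := Finite.one_lt_card_iff_nontrivial.1 (by omega)
    have := (IsPGroup.of_card (p := 2) (n := 6) hD).isNilpotent
    exact (Group.IsSolvable.commutator_lt_top_of_nontrivial (commutator G)).ne (key _
      (fun x y => commutator_mem_commutator (mem_top x) (mem_top y)) fun x => by simp [e])
  · obtain ⟨a, ha, z, hz, rfl⟩ := (mul_normal H (center _)).le (e.ge (mem_top x))
    obtain ⟨b, hb, z', hz', rfl⟩ := (mul_normal H (center _)).le (e.ge (mem_top y))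
    have l : ∀ a y : commutator G, ∀ z ∈ center _, ⁅a * z, y⁆ = ⁅a, y⁆ := fun a y z hz => by
      rw [show ⁅a * z, y⁆ = a * (z * y) * z⁻¹ * a⁻¹ * y⁻¹ by group, ← mem_center_iff.1 hz y]
      group
    have : ⁅a * z, b * z'⁆ = ⁅a, b⁆ := by rw [l a _ z hz, ← commutatorElement_inv, l b a z' hz', commutatorElement_inv]
    exact this ▸ H.mul_mem (H.mul_mem (H.mul_mem ha hb) (H.inv_mem ha)) (H.inv_mem hb)
  · obtain ⟨a, ha, z, hz', rfl⟩ := (mul_normal H (center _)).le (e.ge (mem_top x))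
    beta_reduce
    rw [map_mul, hz z hz', mul_inv_rev, mul_assoc, ← mul_assoc a⁻¹, mem_center_iff.1 hz', inv_mul_cancel_left]
    exact H.mul_mem (H.inv_mem ha) (hH a ha)

end CfsgLib.TwoGrp2
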